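import Cfsg.Agent.H419.EP.Big
import Cfsg.Agent.H925.NatConj
import Cfsg.Agent.S0245
import Cfsg.Agent.S0246
import Cfsg.Agent.S0814

/-!
# S3499, VII13-PSp: the order bound and the natural module (helper532)

* `aut_le` : `|Aut PSp_2d(K)| ≤ c f |K| ^ (d (2 d + 1))`;
* `num_false` : the arithmetic;
* **`nat_false`** : the natural module of a symplectic group;
* **`order_false`** : the order bound.
-/

set_option autoImplicit false
set_option linter.unusedSectionVars false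
set_option linter.style.haveILetI false

namespace Cfsg.Agent.H532.EP

open Cfsg Cfsg.Geo Cfsg.Agent.H419.EP Cfsg.Agent.H284 Cfsg.Agent.H925.Nat
open scoped MatrixGroups

/-- `|Sp_2d(K)| ≤ |K| ^ (d (2 d + 1))` -/
theorem card_sp_le {K : Type*} [Field K] [Fintype K] (d : ℕ) :
    Nat.card (Matrix.symplecticGroup (Fin d) K) ≤ Fintype.card K ^ (d * (2 * d + 1)) := by
  rw [Cfsg.Agent.S0245.result (F := K) rfl d]
  set q := Fintype.card K
  have h1 : ∏ i ∈ Finset.range d, (q ^ (2 * (i + 1)) - 1) ≤ ∏ i ∈ Finset.range d, q ^ (2 * (i + 1)) :=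
    Finset.prod_le_prod' fun i _ => Nat.sub_le _ _
  have h2 : ∏ i ∈ Finset.range d, q ^ (2 * (i + 1)) = q ^ (d * (d + 1)) := by
    rw [Finset.prod_pow_eq_pow_sum]
    congr 1
    clear h1
    induction d with
    | zero => rfl
    | succ d ih => rw [Finset.sum_range_succ, ih]; ring
  rw [h2] at h1
  calc q ^ d ^ 2 * _ ≤ q ^ d ^ 2 * q ^ (d * (d + 1)) := Nat.mul_le_mul_left _ h1
    _ = _ := by rw [← pow_add]; congr 1; ring

theorem aut_le {K : Type} [Field K] [Fintype K] {p f : ℕ} [hp : Fact p.Prime] (hf : 1 ≤ f) (hK : Fintype.card K = p ^ f)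
    {d : ℕ} (hd : 2 ≤ d) (h2 : d = 2 → 3 ≤ Fintype.card K) :
    Nat.card (MulAut (PSp d K)) ≤ 2 ^ (if d = 2 then 1 else 0) * f * Fintype.card K ^ (d * (2 * d + 1)) := by
  rw [Cfsg.Agent.S0814.result p f hf hK d hd (fun h => by rw [← hK]; exact h2 h)]
  have h3 : Nat.card (Matrix.symplecticGroup (Fin d) K) = Nat.card (PSp d K) * Nat.gcd 2 (p ^ f - 1) := by
    rw [← Cfsg.Agent.S0246.result (F := K) hK d (by omega)]
    exact Subgroup.card_eq_card_quotient_mul_card_subgroup _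
  have h4 := card_sp_le (K := K) d
  have h5 : (if d = 2 ∧ p = 2 then 2 else 1) ≤ 2 ^ (if d = 2 then 1 else 0) := by
    by_cases h : d = 2
    · rw [if_pos h]; split_ifs <;> norm_num
    · rw [if_neg h, if_neg (fun h' => h h'.1)]; norm_num
  calc (if d = 2 ∧ p = 2 then 2 else 1) * Nat.gcd 2 (p ^ f - 1) * f * Nat.card (PSp d K) =
      (if d = 2 ∧ p = 2 then 2 else 1) * f * (Nat.card (PSp d K) * Nat.gcd 2 (p ^ f - 1)) := by ring
    _ ≤ _ := by
      rw [← h3]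
      exact Nat.mul_le_mul (Nat.mul_le_mul_right _ h5) h4

/-- the arithmetic -/
theorem num_false {p a q j s D N x y : ℕ} (hp : 2 ≤ p) (ha : 1 ≤ a) (hq : q = p ^ a)
    (hx : x ≤ 2 ^ s * (a * j) * (q ^ j) ^ D) (hy : y ≤ x ^ 4) (h : q ^ N ≤ 8 * y)
    (hN : 4 * (j * D) + 4 * j + 3 + 4 * s ≤ N) : False := by
  have hq2 : 2 ^ a ≤ q := by rw [hq]; exact Nat.pow_le_pow_left hp a
  have h2q : 2 ≤ q := le_trans (by calc 2 = 2 ^ 1 := rfl
                                    _ ≤ 2 ^ a := Nat.pow_le_pow_right (by norm_num) ha) hq2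
  have haj : a * j < 2 ^ (a * j) := Nat.lt_two_pow_self
  have h1 : 2 ^ (a * j) ≤ q ^ j := by rw [pow_mul]; exact Nat.pow_le_pow_left hq2 j
  have h2 : (a * j) ^ 4 < (q ^ j) ^ 4 := Nat.pow_lt_pow_left (haj.trans_le h1) (by norm_num)
  have h3 : 2 ^ (3 + 4 * s) ≤ q ^ (3 + 4 * s) := Nat.pow_le_pow_left h2q _
  have hpos : 0 < (q ^ j) ^ D := by positivity
  have h4 : q ^ N < q ^ N := by
    calc q ^ N ≤ 8 * y := h
      _ ≤ 8 * (2 ^ s * (a * j) * (q ^ j) ^ D) ^ 4 := Nat.mul_le_mul_left _ (hy.trans (Nat.pow_le_pow_left hx 4))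
      _ = 2 ^ (3 + 4 * s) * (a * j) ^ 4 * ((q ^ j) ^ D) ^ 4 := by rw [pow_add, pow_mul' 2 4 s]; ring
      _ < q ^ (3 + 4 * s) * (q ^ j) ^ 4 * ((q ^ j) ^ D) ^ 4 := by
        apply Nat.mul_lt_mul_of_pos_right _ (by positivity)
        calc 2 ^ (3 + 4 * s) * (a * j) ^ 4 < 2 ^ (3 + 4 * s) * (q ^ j) ^ 4 :=
              Nat.mul_lt_mul_of_pos_left h2 (by positivity)
          _ ≤ _ := Nat.mul_le_mul_right _ h3
      _ = q ^ (4 * (j * D) + 4 * j + 3 + 4 * s) := by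
        rw [← pow_mul, ← pow_mul, ← pow_mul, ← pow_add, ← pow_add]; congr 1; ring
      _ ≤ q ^ N := Nat.pow_le_pow_right (by omega) hN
  exact lt_irrefl _ h4

section big

variable {Q : Type} [Group Q] [Finite Q] {A : Subgroup Q} {Γ : Subgroup (MulAut Q)} {ι : Type} [Fintype ι]
    [DecidableEq ι] {F : Type} [Field F] [Fintype F] {S P : Subgroup (GL ι F)}

/-- **The natural module.** -/
theorem nat_false (b : Big A Γ S P) {l : ℕ} (hl : 2 ≤ l) (h : CjOf (spGL l F) P) : False := by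
  have hC := Cfsg.Agent.H915.LD.core_of_residual b.core
  have hne := hC.nonempty
  rcases b.kind with ⟨-, -, -, ns, -⟩ | ⟨f, hf, hS, -, -, -, -⟩ | ⟨q, -, σ, f, -, -, -, -, -, ns⟩ |
    ⟨Qf, hQ, hS, -, -⟩
  · obtain ⟨f, hf, h1⟩ := h.fixA
    exact ns ⟨f, hf, h1⟩
  · have hP : FixesForm (matrixSet P) f := by
      rintro _ ⟨g, hg, rfl⟩ u v
      exact hS _ ⟨g, b.le_S hg, rfl⟩ u v
    have h1 : S ≤ P := by
      intro g hg
      rw [h.sp_mem_iff hC.absIrred hf hP g]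
      intro u v
      exact hS _ ⟨g, hg, rfl⟩ u v
    have h2 : b.m.hat A = b.m.hat ⊤ := by
      rw [b.m.hat_top]
      exact le_antisymm (b.m.hat_le A) (h1.trans b.core.le)
    exact b.ept.max.1 (b.m.hat_injective h2)
  · obtain ⟨f, hf, h1⟩ := h.fixA
    exact ns ⟨f, hf, h1⟩
  · refine h.sp_not_fixQ hl ⟨Qf, hQ, ?_⟩
    rintro _ ⟨g, hg, rfl⟩ v
    have h1 := b.le_S hg
    rw [hS] at h1
    obtain ⟨g', -, rfl⟩ := h1
    exact g'.2 v 0

/-- **The order bound.** -/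
theorem order_false (b : Big A Γ S P) (hUB : Nat.card Q ≤ Nat.card A ^ 4) {K : Type} [Field K] [Fintype K]
    {p : ℕ} [hp : Fact p.Prime] [CharP F p] {d : ℕ} (hd : 2 ≤ d) (h2 : d = 2 → 3 ≤ Fintype.card K)
    (e : socle P ≃* PSp d K) {j : ℕ} (hj : 1 ≤ j) (hjK : Fintype.card K = Fintype.card F ^ j)
    (hN : 4 * (j * (d * (2 * d + 1))) + 4 * j + 3 + 4 * (if d = 2 then 1 else 0) ≤
      Fintype.card ι * (Fintype.card ι - 1) / 2) : False := by
  obtain ⟨a, -, ha⟩ := FiniteField.card F p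
  have ha1 : 1 ≤ (a : ℕ) := a.pos
  have hKp : Fintype.card K = p ^ ((a : ℕ) * j) := by rw [hjK, ha, pow_mul]
  have h1 := aut_le (K := K) (p := p) (f := (a : ℕ) * j) (Nat.mul_pos ha1 hj) hKp hd h2
  haveI : Finite (PSp d K) := Quotient.finite _
  have h3 := (b.hasSoc' e).card_le
  rw [hjK] at h1
  exact num_false (hp.out.two_le) ha1 ha (h3.trans h1) hUB b.ord hN

end big

end Cfsg.Agent.H532.EP
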