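import Mathlib

/-!
# S3499, VII13-PSp: weights of an elementary abelian 3-group (helper532)

`r i` commuting operators of order 3, `t i` operators which invert `r i` and commute with `r j`, `j ≠ i`; `ω ^ 2 + ω + 1 = 0`,
`3 ≠ 0`.

* `split3`, `split` : the eigenspaces of an operator of order 3;
* `Us` : the joint eigenspaces; **`total`** : `dim L = ∑ 2 ^ |S| dim (L ∩ Us S)`;
* `linInd` : joint eigenvectors with different weights are linearly independent.
-/

set_option autoImplicit false
set_option linter.unusedSectionVars false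

namespace Cfsg.Agent.H532.EP

section om

variable {k : Type*} [Field k] {ω : k} (hω : ω ^ 2 + ω + 1 = 0)
include hω

theorem om3 : ω ^ 3 = 1 := by linear_combination (ω - 1) * hω

theorem om0 : ω ≠ 0 := by
  rintro rfl
  norm_num at hω

variable (h30 : (3 : k) ≠ 0)
include h30

theorem om1 : ω ≠ 1 := by
  rintro rfl
  apply h30
  linear_combination hω

theorem om2 : ω ^ 2 ≠ 1 := by
  intro h
  apply h30
  linear_combination h - (ω - 2) * (hω - h)

theorem om21 : ω ^ 2 ≠ ω := by
  intro h
  have h1 : ω * (ω - 1) = 0 := by linear_combination h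
  rcases mul_eq_zero.1 h1 with h2 | h2
  · exact om0 hω h2
  · exact om1 hω h30 (sub_eq_zero.1 h2)

end om

section basic

variable {k V : Type*} [Field k] [AddCommGroup V] [Module k V]

/-- the eigenspace in `L` -/
def Ei (L : Submodule k V) (r : Module.End k V) (c : k) : Submodule k V := L ⊓ LinearMap.ker (r - c • 1)

theorem mem_Ei {L : Submodule k V} {r : Module.End k V} {c : k} {v : V} : v ∈ Ei L r c ↔ v ∈ L ∧ r v = c • v := by
  unfold Ei
  rw [Submodule.mem_inf, LinearMap.mem_ker]
  simp only [LinearMap.sub_apply, LinearMap.smul_apply, Module.End.one_apply]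
  rw [sub_eq_zero]

variable [FiniteDimensional k V] {L : Submodule k V} {r : Module.End k V} {ω : k}

theorem split3 (hL : ∀ v ∈ L, r v ∈ L) (h3 : ∀ v ∈ L, r (r (r v)) = v) (hω : ω ^ 2 + ω + 1 = 0) (h30 : (3 : k) ≠ 0) :
    Module.finrank k L = Module.finrank k (Ei L r 1) + Module.finrank k (Ei L r ω) + Module.finrank k (Ei L r (ω ^ 2)) := by
  have hω3 := om3 hω
  have hd1 : Ei L r 1 ⊓ Ei L r ω = ⊥ := by
    rw [eq_bot_iff]
    rintro v ⟨h1, h2⟩
    have e1 := (mem_Ei.1 h1).2
    rw [(mem_Ei.1 h2).2] at e1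
    have e2 : (ω - 1) • v = 0 := by rw [sub_smul, e1, sub_self]
    exact (smul_eq_zero.1 e2).resolve_left (sub_ne_zero.2 (om1 hω h30))
  have hd2 : (Ei L r 1 ⊔ Ei L r ω) ⊓ Ei L r (ω ^ 2) = ⊥ := by
    rw [eq_bot_iff]
    rintro v ⟨h1, h2⟩
    obtain ⟨a, ha, b, hb, rfl⟩ := Submodule.mem_sup.1 h1
    have ea := (mem_Ei.1 ha).2
    have eb := (mem_Ei.1 hb).2
    have e1 := (mem_Ei.1 h2).2
    rw [map_add, ea, eb] at e1
    have e2 : (1 - ω ^ 2) • a = (ω ^ 2 - ω) • b := by
      rw [sub_smul, sub_smul]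
      have : (1 : k) • a + ω • b - (ω ^ 2 • a + ω ^ 2 • b) = 0 := by rw [e1, smul_add, sub_self]
      rw [← sub_eq_zero]
      rw [← this]
      abel
    have e3 := congrArg r e2
    rw [map_smul, map_smul, ea, eb, one_smul, e2, smul_smul] at e3
    have e4 : ((ω ^ 2 - ω) * (1 - ω)) • b = 0 := by
      rw [mul_sub, mul_one, sub_smul, e3, sub_self]
    have hb0 : b = 0 := by
      refine (smul_eq_zero.1 e4).resolve_left (mul_ne_zero (sub_ne_zero.2 (om21 hω h30)) ?_)
      exact sub_ne_zero.2 (om1 hω h30).symm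
    rw [hb0, smul_zero] at e2
    have ha0 := (smul_eq_zero.1 e2).resolve_left (sub_ne_zero.2 (om2 hω h30).symm)
    rw [ha0, hb0, add_zero]
    exact zero_mem _
  have hsup : (Ei L r 1 ⊔ Ei L r ω) ⊔ Ei L r (ω ^ 2) = L := by
    apply le_antisymm
    · exact sup_le (sup_le inf_le_left inf_le_left) inf_le_left
    · intro v hv
      have h1 := hL v hv
      have h2 := hL _ h1
      have h3' := h3 v hv
      have e0 : v = (3 : k)⁻¹ • ((v + r v + r (r v)) + (v + ω ^ 2 • r v + ω • r (r v)) +
          (v + ω • r v + ω ^ 2 • r (r v))) := by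
        have : (v + r v + r (r v)) + (v + ω ^ 2 • r v + ω • r (r v)) + (v + ω • r v + ω ^ 2 • r (r v)) =
            (3 : k) • v := by
          have e1 : (v + r v + r (r v)) + (v + ω ^ 2 • r v + ω • r (r v)) + (v + ω • r v + ω ^ 2 • r (r v)) =
            (3 : k) • v + (ω ^ 2 + ω + 1) • (r v + r (r v)) := by module
          rw [e1, hω, zero_smul, add_zero]
        rw [this, smul_smul, inv_mul_cancel₀ h30, one_smul]
      rw [e0]
      refine Submodule.smul_mem _ _ (add_mem (add_mem ?_ ?_) ?_)
      · refine Submodule.mem_sup_left (Submodule.mem_sup_left (mem_Ei.2 ⟨add_mem (add_mem hv h1) h2, ?_⟩))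
        rw [map_add, map_add, h3', one_smul]
        abel
      · refine Submodule.mem_sup_left (Submodule.mem_sup_right (mem_Ei.2
          ⟨add_mem (add_mem hv (L.smul_mem _ h1)) (L.smul_mem _ h2), ?_⟩))
        rw [map_add, map_add, map_smul, map_smul, h3', smul_add, smul_add, smul_smul, smul_smul]
        have : ω * ω ^ 2 = 1 := by rw [← hω3]; ring
        rw [this, one_smul, pow_two]
        abel
      · refine Submodule.mem_sup_right (mem_Ei.2
          ⟨add_mem (add_mem hv (L.smul_mem _ h1)) (L.smul_mem _ h2), ?_⟩)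
        rw [map_add, map_add, map_smul, map_smul, h3', smul_add, smul_add, smul_smul, smul_smul]
        have e1 : ω ^ 2 * ω = 1 := by rw [← hω3]; ring
        have e2 : ω ^ 2 * ω ^ 2 = ω := by linear_combination ω * hω3
        rw [e1, e2, one_smul]
        abel
  have f1 := Submodule.finrank_sup_add_finrank_inf_eq (Ei L r 1) (Ei L r ω)
  have f2 := Submodule.finrank_sup_add_finrank_inf_eq (Ei L r 1 ⊔ Ei L r ω) (Ei L r (ω ^ 2))
  rw [hd1, finrank_bot] at f1
  rw [hd2, finrank_bot, hsup] at f2
  omega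

/-- an injective map between subspaces -/
theorem finrank_le_of_maps {L L' : Submodule k V} {t : Module.End k V} (ht : Function.Injective t)
    (h : ∀ v ∈ L, t v ∈ L') : Module.finrank k L ≤ Module.finrank k L' := by
  refine LinearMap.finrank_le_finrank_of_injective (f := (t.domRestrict L).codRestrict L' fun v => h v v.2) ?_
  intro x y hxy
  have h1 : t x = t y := congrArg Subtype.val hxy
  exact Subtype.ext (ht h1)

/-- **an operator of order 3 inverted by `t`** -/
theorem split {t : Module.End k V} (ht : Function.Injective t) (hL : ∀ v ∈ L, r v ∈ L)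
    (htL : ∀ v ∈ L, t v ∈ L) (h3 : ∀ v, r (r (r v)) = v) (htr : ∀ v, r (t v) = t (r (r v)))
    (hω : ω ^ 2 + ω + 1 = 0) (h30 : (3 : k) ≠ 0) :
    Module.finrank k L = Module.finrank k (Ei L r 1) + 2 * Module.finrank k (Ei L r ω) := by
  have hω3 := om3 hω
  have h1 := split3 hL (fun v _ => h3 v) hω h30
  have h2 : Module.finrank k (Ei L r ω) ≤ Module.finrank k (Ei L r (ω ^ 2)) := by
    refine finrank_le_of_maps ht fun v hv => mem_Ei.2 ⟨htL v (mem_Ei.1 hv).1, ?_⟩
    rw [htr, (mem_Ei.1 hv).2, map_smul, (mem_Ei.1 hv).2, smul_smul, map_smul, pow_two]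
  have h3 : Module.finrank k (Ei L r (ω ^ 2)) ≤ Module.finrank k (Ei L r ω) := by
    refine finrank_le_of_maps ht fun v hv => mem_Ei.2 ⟨htL v (mem_Ei.1 hv).1, ?_⟩
    rw [htr, (mem_Ei.1 hv).2, map_smul, (mem_Ei.1 hv).2, smul_smul, map_smul]
    congr 1
    linear_combination ω * hω3
  omega

end basic

/-! ### several operators -/

section many

variable {k V : Type*} [Field k] [AddCommGroup V] [Module k V] {n : ℕ} (r : Fin n → Module.End k V) (ω : k)

/-- the joint eigenspace -/
def Us (T S : Finset (Fin n)) : Submodule k V where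
  carrier := {v | ∀ i ∈ T, r i v = (if i ∈ S then ω else 1) • v}
  add_mem' := fun ha hb i hi => by rw [map_add, ha i hi, hb i hi, smul_add]
  zero_mem' := fun i _ => by rw [map_zero, smul_zero]
  smul_mem' := fun c v hv i hi => by rw [map_smul, hv i hi, smul_comm]

theorem mem_Us {T S : Finset (Fin n)} {v : V} : v ∈ Us r ω T S ↔ ∀ i ∈ T, r i v = (if i ∈ S then ω else 1) • v :=
  Iff.rfl

variable {r ω} {t : Fin n → Module.End k V}

/-- the hypotheses -/
structure Hyp (r t : Fin n → Module.End k V) (ω : k) : Prop where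
  three : ∀ i v, r i (r i (r i v)) = v
  comm : ∀ i j v, r i (r j v) = r j (r i v)
  tcomm : ∀ i j v, i ≠ j → r i (t j v) = t j (r i v)
  tinv : ∀ i v, r i (t i v) = t i (r i (r i v))
  inj : ∀ i, Function.Injective (t i)
  om : ω ^ 2 + ω + 1 = 0
  ne : (3 : k) ≠ 0

variable [FiniteDimensional k V] (H : Hyp r t ω)
include H

/-- **The decomposition.** -/
theorem total {L : Submodule k V} (hr : ∀ i, ∀ v ∈ L, r i v ∈ L) (ht : ∀ i, ∀ v ∈ L, t i v ∈ L)
    (T : Finset (Fin n)) :
    Module.finrank k L = ∑ S ∈ T.powerset, 2 ^ S.card * Module.finrank k ↥(L ⊓ Us r ω T S) := by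
  induction T using Finset.induction_on with
  | empty =>
    rw [Finset.powerset_empty, Finset.sum_singleton, Finset.card_empty, pow_zero, one_mul]
    have : L ⊓ Us r ω ∅ ∅ = L := inf_eq_left.2 fun v _ i hi => absurd hi (Finset.notMem_empty i)
    rw [this]
  | insert a T ha ih =>
    rw [ih, Finset.sum_powerset_insert ha, ← Finset.sum_add_distrib]
    refine Finset.sum_congr rfl fun S hS => ?_
    rw [Finset.mem_powerset] at hS
    have haS : a ∉ S := fun h => ha (hS h)
    have hne : ∀ i ∈ T, i ≠ a := fun i hi e => ha (e ▸ hi)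
    have h1 := split (L := L ⊓ Us r ω T S) (r := r a) (t := t a) (H.inj a)
      (fun v hv => ⟨hr a v hv.1, fun i hi => by rw [H.comm, hv.2 i hi, map_smul]⟩)
      (fun v hv => ⟨ht a v hv.1, fun i hi => by rw [H.tcomm i a v (hne i hi), hv.2 i hi, map_smul]⟩)
      (H.three a) (H.tinv a) H.om H.ne
    have e1 : Ei (L ⊓ Us r ω T S) (r a) 1 = L ⊓ Us r ω (insert a T) S := by
      ext v
      rw [mem_Ei, Submodule.mem_inf, Submodule.mem_inf, mem_Us, mem_Us]
      constructor
      · rintro ⟨⟨h2, h3⟩, h4⟩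
        refine ⟨h2, fun i hi => ?_⟩
        rcases Finset.mem_insert.1 hi with rfl | hi
        · rw [if_neg haS]; exact h4
        · exact h3 i hi
      · rintro ⟨h2, h3⟩
        refine ⟨⟨h2, fun i hi => h3 i (Finset.mem_insert_of_mem hi)⟩, ?_⟩
        have := h3 a (Finset.mem_insert_self _ _)
        rwa [if_neg haS] at this
    have e2 : Ei (L ⊓ Us r ω T S) (r a) ω = L ⊓ Us r ω (insert a T) (insert a S) := by
      ext v
      rw [mem_Ei, Submodule.mem_inf, Submodule.mem_inf, mem_Us, mem_Us]
      have key : ∀ i ∈ T, (i ∈ insert a S ↔ i ∈ S) := fun i hi =>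
        ⟨fun h => (Finset.mem_insert.1 h).resolve_left (hne i hi), Finset.mem_insert_of_mem⟩
      constructor
      · rintro ⟨⟨h2, h3⟩, h4⟩
        refine ⟨h2, fun i hi => ?_⟩
        rcases Finset.mem_insert.1 hi with rfl | hi
        · rw [if_pos (Finset.mem_insert_self _ _)]; exact h4
        · rw [h3 i hi]
          simp only [key i hi]
      · rintro ⟨h2, h3⟩
        refine ⟨⟨h2, fun i hi => ?_⟩, ?_⟩
        · rw [h3 i (Finset.mem_insert_of_mem hi)]
          simp only [key i hi]
        · have := h3 a (Finset.mem_insert_self _ _)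
          rwa [if_pos (Finset.mem_insert_self _ _)] at this
    rw [h1, e1, e2, Finset.card_insert_of_notMem haS, pow_succ]
    ring

/-- the joint eigenspaces are invariant -/
theorem total_top (hd : ∀ S S' : Finset (Fin n), S.card = S'.card →
      Module.finrank k (Us r ω Finset.univ S) ≤ Module.finrank k (Us r ω Finset.univ S')) :
    ∃ m : ℕ → ℕ, (∀ S, Module.finrank k (Us r ω Finset.univ S) = m S.card) ∧
      Module.finrank k V = ∑ j ∈ Finset.range (n + 1), n.choose j * (2 ^ j * m j) := by
  classical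
  let m : ℕ → ℕ := fun j => if h : ∃ S : Finset (Fin n), S.card = j then
    Module.finrank k (Us r ω Finset.univ h.choose) else 0
  have hm : ∀ S : Finset (Fin n), Module.finrank k (Us r ω Finset.univ S) = m S.card := by
    intro S
    have h : ∃ S' : Finset (Fin n), S'.card = S.card := ⟨S, rfl⟩
    change _ = dite _ _ _
    rw [dif_pos h]
    exact le_antisymm (hd _ _ h.choose_spec.symm) (hd _ _ h.choose_spec)
  refine ⟨m, hm, ?_⟩
  have h1 := total H (L := ⊤) (fun _ _ _ => trivial) (fun _ _ _ => trivial) Finset.univ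
  rw [finrank_top] at h1
  rw [h1]
  have h2 : ∀ S ∈ (Finset.univ : Finset (Fin n)).powerset,
      2 ^ S.card * Module.finrank k ↥(⊤ ⊓ Us r ω Finset.univ S) = (fun j => 2 ^ j * m j) S.card := by
    intro S _
    rw [top_inf_eq, hm]
  rw [Finset.sum_congr rfl h2, Finset.sum_powerset_apply_card (fun j => 2 ^ j * m j), Finset.card_univ,
    Fintype.card_fin]
  rfl

/-- **All or nothing.** If only the empty and the full weight occur then `ker (r i - 1) = Us ∅`. -/
theorem ker_eq {m : ℕ → ℕ} (hm : ∀ S, Module.finrank k (Us r ω Finset.univ S) = m S.card)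
    (h0 : ∀ j, 0 < j → j < n → m j = 0) (i : Fin n) {v : V} (hv : r i v = v) : v ∈ Us r ω Finset.univ ∅ := by
  classical
  have hω1 := om1 H.om H.ne
  set L := Ei (⊤ : Submodule k V) (r i) 1 with hLd
  have hL : ∀ v, v ∈ L ↔ r i v = v := fun v => by rw [hLd, mem_Ei, one_smul]; simp
  have h1 := total H (L := L) (fun j v hv => by
      rw [hL] at hv ⊢
      rw [H.comm, hv]) (fun j v hv => by
      rw [hL] at hv ⊢
      by_cases hij : i = j
      · subst hij
        rw [H.tinv, hv, hv]
      · rw [H.tcomm i j v hij, hv]) Finset.univ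
  have h2 : ∀ S ∈ (Finset.univ : Finset (Fin n)).powerset, S ≠ ∅ →
      2 ^ S.card * Module.finrank k ↥(L ⊓ Us r ω Finset.univ S) = 0 := by
    intro S _ hS
    have hS0 : 0 < S.card := Finset.card_pos.2 (Finset.nonempty_iff_ne_empty.2 hS)
    rcases Nat.lt_or_ge S.card n with hn | hn
    · have h3 := hm S
      rw [h0 _ hS0 hn] at h3
      have h4 : Us r ω Finset.univ S = ⊥ := Submodule.finrank_eq_zero.1 h3
      rw [h4, inf_bot_eq, finrank_bot, mul_zero]
    · have h3 : S = Finset.univ := by
        rw [← Finset.card_eq_iff_eq_univ, Fintype.card_fin]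
        exact le_antisymm (by simpa using Finset.card_le_univ S) hn
      have h4 : L ⊓ Us r ω Finset.univ S = ⊥ := by
        rw [eq_bot_iff]
        rintro v ⟨h5, h6⟩
        have h7 := h6 i (Finset.mem_univ i)
        rw [h3, if_pos (Finset.mem_univ i), (hL v).1 h5] at h7
        have h8 : (ω - 1) • v = 0 := by rw [sub_smul, ← h7, one_smul, sub_self]
        exact (smul_eq_zero.1 h8).resolve_left (sub_ne_zero.2 hω1)
      rw [h4, finrank_bot, mul_zero]
  rw [Finset.sum_eq_single_of_mem ∅ (Finset.empty_mem_powerset _) h2, Finset.card_empty, pow_zero, one_mul] at h1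
  have h3 : L ⊓ Us r ω Finset.univ ∅ = L := Submodule.eq_of_le_of_finrank_le inf_le_left h1.le
  exact (inf_eq_left.1 h3) ((hL v).2 hv)

end many

/-! ### linear independence -/

section ind

variable {k V : Type*} [Field k] [AddCommGroup V] [Module k V] {n : ℕ} {r : Fin n → Module.End k V} {ω : k}
  (hω : ω ^ 2 + ω + 1 = 0) (h30 : (3 : k) ≠ 0)
include hω

/-- the projections, up to the factor 3 -/
theorem proj_eq {f : Module.End k V} {v : V} {a b : Fin 3} (h : f v = ω ^ (b : ℕ) • v) :
    v + ω ^ (2 * (a : ℕ)) • f v + ω ^ (a : ℕ) • f (f v) = if b = a then (3 : k) • v else 0 := by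
  have hω3 := om3 hω
  rw [h, map_smul, h, smul_smul, smul_smul, smul_smul]
  have key : (1 : k) + ω ^ (2 * (a : ℕ)) * ω ^ (b : ℕ) + ω ^ (a : ℕ) * (ω ^ (b : ℕ) * ω ^ (b : ℕ)) =
      if b = a then 3 else 0 := by
    fin_cases a <;> fin_cases b <;> norm_num
    · linear_combination hω
    · linear_combination ω * hω3 + hω
    · linear_combination hω
    · linear_combination 2 * hω3
    · linear_combination hω + (ω ^ 2 + ω) * hω3
    · linear_combination hω + ω * hω3
    · linear_combination hω + (ω + ω ^ 2) * hω3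
    · linear_combination (ω ^ 3 + 1) * hω3 + (ω ^ 3 + 1) * hω3
  have e1 : v + (ω ^ (2 * (a : ℕ)) * ω ^ (b : ℕ)) • v + (ω ^ (a : ℕ) * (ω ^ (b : ℕ) * ω ^ (b : ℕ))) • v =
      ((1 : k) + ω ^ (2 * (a : ℕ)) * ω ^ (b : ℕ) + ω ^ (a : ℕ) * (ω ^ (b : ℕ) * ω ^ (b : ℕ))) • v := by
    rw [add_smul, add_smul, one_smul]
  rw [mul_assoc, e1, key]
  split_ifs
  · rfl
  · rw [zero_smul]

include h30

theorem filt {J : Type*} {x : J → V} {w : J → Fin n → Fin 3} (hx : ∀ j i, r i (x j) = ω ^ (w j i : ℕ) • x j)
    (s : Finset J) (c : J → k) (h0 : ∑ j ∈ s, c j • x j = 0) (w₀ : Fin n → Fin 3) (T : Finset (Fin n)) :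
    ∑ j ∈ s with (∀ i ∈ T, w j i = w₀ i), c j • x j = 0 := by
  classical
  induction T using Finset.induction_on with
  | empty => simpa using h0
  | insert a T ha ih =>
    set y := ∑ j ∈ s with (∀ i ∈ T, w j i = w₀ i), c j • x j with hy
    have h1 : y + ω ^ (2 * (w₀ a : ℕ)) • r a y + ω ^ (w₀ a : ℕ) • r a (r a y) = 0 := by
      rw [ih, map_zero, map_zero, smul_zero, smul_zero, add_zero, add_zero]
    have h2 : y + ω ^ (2 * (w₀ a : ℕ)) • r a y + ω ^ (w₀ a : ℕ) • r a (r a y) =
        ∑ j ∈ s with (∀ i ∈ T, w j i = w₀ i), c j • (if w j a = w₀ a then (3 : k) • x j else 0) := by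
      rw [hy]
      simp only [map_sum, Finset.smul_sum, ← Finset.sum_add_distrib]
      refine Finset.sum_congr rfl fun j _ => ?_
      rw [← proj_eq hω (hx j a)]
      simp only [map_smul, smul_add]
      rw [smul_comm (ω ^ (2 * (w₀ a : ℕ))), smul_comm (ω ^ (w₀ a : ℕ))]
    rw [h2] at h1
    have h3 : ∑ j ∈ s with (∀ i ∈ T, w j i = w₀ i), c j • (if w j a = w₀ a then (3 : k) • x j else 0) =
        (3 : k) • ∑ j ∈ s with (∀ i ∈ insert a T, w j i = w₀ i), c j • x j := by
      rw [Finset.smul_sum]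
      rw [← Finset.sum_filter_add_sum_filter_not (s.filter fun j => ∀ i ∈ T, w j i = w₀ i) (fun j => w j a = w₀ a)]
      rw [Finset.sum_eq_zero (s := Finset.filter (fun j => ¬ w j a = w₀ a) _), add_zero, Finset.filter_filter]
      · refine Finset.sum_congr ?_ fun j hj => ?_
        · ext j
          simp only [Finset.mem_filter, Finset.forall_mem_insert]
          tauto
        · rw [Finset.mem_filter] at hj
          rw [if_pos (hj.2 a (Finset.mem_insert_self _ _)), smul_comm]
      · intro j hj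
        rw [Finset.mem_filter] at hj
        rw [if_neg hj.2, smul_zero]
    rw [h3] at h1
    exact (smul_eq_zero.1 h1).resolve_left h30

/-- **Joint eigenvectors with different weights are linearly independent.** -/
theorem linInd {J : Type*} {x : J → V} {w : J → Fin n → Fin 3} (hx : ∀ j i, r i (x j) = ω ^ (w j i : ℕ) • x j)
    (hx0 : ∀ j, x j ≠ 0) (hw : Function.Injective w) : LinearIndependent k x := by
  classical
  rw [linearIndependent_iff']
  intro s c h0 j hj
  have h1 := filt hω h30 hx s c h0 (w j) Finset.univ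
  have h2 : s.filter (fun j' => ∀ i ∈ Finset.univ, w j' i = w j i) = {j} := by
    ext j'
    rw [Finset.mem_filter, Finset.mem_singleton]
    constructor
    · rintro ⟨-, h⟩
      exact hw (funext fun i => h i (Finset.mem_univ i))
    · rintro rfl
      exact ⟨hj, fun _ _ => rfl⟩
  rw [h2, Finset.sum_singleton] at h1
  exact (smul_eq_zero.1 h1).resolve_right (hx0 j)

end ind

end Cfsg.Agent.H532.EP
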